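import Groth.Agent.Sga4B.SemiPurity2
import Groth.Agent.Sga4B.StalkLocal
import Groth.Agent.Sga5.CompDecomp
import Groth.Agent.Pi1B.UHClopen

/-!
# Semi-purity: nonvanishing of the local cohomology sheaf in degree `2c`

`X` smooth over a field `k`, `j : U ⟶ X` an open immersion whose complement `Y` has codimension `≥ c` everywhere and
exactly `c` at some point, `n ≠ 0` in `k`, `n ≠ 1`: `locCoh j (2c) (ℤ/n)` does not vanish.
-/

set_option autoImplicit false
universe u
open CategoryTheory CategoryTheory.Limits AlgebraicGeometry Opposite TopologicalSpace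

namespace Groth.Agent.Sga2lef.H88.SemiPurityNe

open EtCoh EtShriek EtpbcA.OverSite EtpbcA.OverSite2
open Groth.Agent.Sga4B.LocCohLocal Groth.Agent.Sga4B.LocCohTriv Groth.Agent.Sga4B.PurityLocal
open Groth.Agent.Sga4B.SuppFun Groth.Agent.Sga4B.SemiPurity

/-- Every point lies below a geometric point. -/
theorem exists_geomPoint {X : Scheme.{u}} (x : X) : ∃ (Ω : Type u) (_ : Field Ω) (_ : IsSepClosed Ω)
    (ξ : Spec (CommRingCat.of Ω) ⟶ X), ξ default = x := by
  refine ⟨AlgebraicClosure (X.residueField x), inferInstance, inferInstance,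
    Spec.map (CommRingCat.ofHom (algebraMap (X.residueField x) _)) ≫ X.fromSpecResidueField x, ?_⟩
  rw [Scheme.Hom.comp_apply]
  exact Scheme.fromSpecResidueField_apply _ _

/-- A sheaf which is locally isomorphic to a nonzero constant sheaf on a nonempty closed subscheme does not vanish. -/
theorem not_isZero_of_locIso {X Y : Scheme.{u}} (i : Y ⟶ X) [IsClosedImmersion i] (y : Y) (M : Type)
    [AddCommGroup M] [Nontrivial M] (F : Ab X) (h : LocIso F ((push i).obj (const Y M))) : ¬ IsZero F := by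
  intro h0
  obtain ⟨Ω, _, _, ξ, hξ⟩ := exists_geomPoint (i y)
  obtain ⟨ι, V, hV, H⟩ := h
  obtain ⟨e1⟩ := Groth.Agent.Sga4B.StalkLocal.nonempty_stalk_iso_of_restr V hV H ξ
  obtain ⟨e2⟩ := Groth.Agent.Sga4B.StalkLocal.nonempty_stalk_push_pull_const i M ξ (by rw [hξ]; exact ⟨y, rfl⟩)
  have h1 : IsZero ((EtCoh.stalk ξ).obj F) := (EtCoh.stalk ξ).map_isZero h0
  have h2 : IsZero ((EtCoh.stalk ξ).obj ((push i).obj ((pull i).obj (const X M)))) :=
    (h1.of_iso e1.symm).of_iso
      ((EtCoh.stalk ξ).mapIso ((push i).mapIso (EtCore.pullConst i M)))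
  have h3 : Subsingleton ((EtCoh.stalk ξ).obj ((push i).obj ((pull i).obj (const X M)))) :=
    AddCommGrpCat.subsingleton_of_isZero h2
  have h4 : Subsingleton M := e2.symm.toEquiv.subsingleton
  exact not_subsingleton M h4

/-- Nonvanishing from purity. -/
theorem not_isZero_of_pure {X Y U : Scheme.{u}} (i : Y ⟶ X) [IsClosedImmersion i] (j : U ⟶ X) (c : ℕ) (y : Y)
    (M : Type) [AddCommGroup M] [Nontrivial M] (F : Ab X) (h : Pure i j c F (const Y M)) :
    ¬ IsZero ((EtDual.locCoh j (2 * c)).obj F) :=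
  not_isZero_of_locIso i y M _ h.2

/-- A strict generization has smaller local dimension. -/
theorem ringKrullDim_stalk_lt {X : Scheme.{u}} {z y : X} (h : z ⤳ y) (hne : z ≠ y) (c : ℕ)
    (hy : ringKrullDim (X.presheaf.stalk y) = c) : ringKrullDim (X.presheaf.stalk z) < c := by
  rw [ringKrullDim_stalk_eq_coheight] at hy ⊢
  have hy' : Order.coheight y = (c : ℕ∞) := by exact_mod_cast hy
  have hle : y ≤ z := h
  have hlt : y < z := by
    refine lt_of_le_not_ge hle fun h' => hne ?_
    have h'' : y ⤳ z := h'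
    exact (h.antisymm h'').eq
  have h1 := Order.coheight_strictAnti hlt (by
    refine lt_of_le_of_lt (Order.coheight_anti hlt.le) ?_
    rw [hy']
    exact ENat.natCast_lt_top c)
  rw [hy'] at h1
  exact_mod_cast h1

/-- Local dimensions are invariant under homeomorphisms. -/
theorem ringKrullDim_stalk_eq_of_homeo {X X' : Scheme.{u}} (i : X' ⟶ X) (hi : Topology.IsOpenEmbedding i) (x : X') :
    ringKrullDim (X.presheaf.stalk (i x)) = ringKrullDim (X'.presheaf.stalk x) := by
  rw [ringKrullDim_stalk_eq_coheight, ringKrullDim_stalk_eq_coheight]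
  exact congrArg _ (Topology.IsOpenEmbedding.coheight_eq _ hi)

/-- Codimension zero. -/
theorem not_isZero_locCoh_zero {X U : Scheme.{u}} [IsLocallyNoetherian X]
    (hX : ∀ x : X, IsDomain (X.presheaf.stalk x)) (j : U ⟶ X) [IsOpenImmersion j]
    (y : X) (hy : y ∉ Set.range j) (hyc : ringKrullDim (X.presheaf.stalk y) = 0)
    (M : Type) [AddCommGroup M] [Nontrivial M] :
    ¬ IsZero ((EtDual.locCoh j 0).obj (const X M)) := by
  intro h0
  let V : X.Opens := Groth.Agent.Sga5.CompDecomp.comp X (ConnectedComponents.mk y)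
  have hyV : y ∈ V := rfl
  have hV : IsIntegral (V : Scheme.{u}) := Groth.Agent.Sga5.CompDecomp.isIntegral_comp hX _
  let y' : (V : Scheme.{u}) := ⟨y, hyV⟩
  have hgen : genericPoint (V : Scheme.{u}) = y' := by
    by_contra hne
    have h1 : genericPoint (V : Scheme.{u}) ⤳ y' := genericPoint_specializes y'
    have h2 : V.ι (genericPoint (V : Scheme.{u})) ⤳ y := h1.map V.ι.continuous
    have h3 : V.ι (genericPoint (V : Scheme.{u})) ≠ y := fun h => hne (Subtype.ext h)
    have h4 := ringKrullDim_stalk_lt h2 h3 0 (by rw [hyc]; rfl)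
    have h5 : (0 : WithBot ℕ∞) ≤ ringKrullDim (X.presheaf.stalk (V.ι (genericPoint (V : Scheme.{u})))) :=
      ringKrullDim_nonneg_of_nontrivial
    exact absurd h4 (not_lt.2 (by exact_mod_cast h5))
  have hjV : Set.range (j ∣_ V) = V.ι ⁻¹' Set.range j := S3109.range_morphismRestrict j V
  have hE : IsEmpty (j ⁻¹ᵁ V : Scheme.{u}) := by
    refine ⟨fun w => hy ?_⟩
    have h1 : (j ∣_ V) w ∈ Set.range (j ∣_ V) := ⟨w, rfl⟩
    have h2 : IsOpen (Set.range (j ∣_ V)) := (j ∣_ V).isOpenEmbedding.isOpen_range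
    have h3 : genericPoint (V : Scheme.{u}) ∈ Set.range (j ∣_ V) :=
      (genericPoint_specializes ((j ∣_ V) w)).mem_open h2 h1
    rw [hgen, hjV] at h3
    exact h3
  have e1 : (restrAlong V.ι).obj ((EtDual.locCoh j 0).obj (const X M)) ≅ const (V : Scheme.{u}) M :=
    (locCohRestrIsoOfRange j V.ι (j ∣_ V) hjV 0).app (const X M) ≪≫
      locCohZeroIsoOfIsEmpty (j ∣_ V) _ ≪≫ Groth.Agent.Sga4h.EtaleRes2.constRestr V.ι M
  have h1 : IsZero (const (V : Scheme.{u}) M) := ((restrAlong V.ι).map_isZero h0).of_iso e1.symm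
  refine not_isZero_of_locIso (𝟙 (V : Scheme.{u})) y' M (const (V : Scheme.{u}) M) ?_ h1
  have h3 := isIso_unitApp_of_isIso (𝟙 (V : Scheme.{u})) (const (V : Scheme.{u}) M)
  have e3 : const (V : Scheme.{u}) M ≅ (push (𝟙 _)).obj ((pull (𝟙 _)).obj (const (V : Scheme.{u}) M)) :=
    asIso (EtDual.unitApp (𝟙 (V : Scheme.{u})) (const (V : Scheme.{u}) M))
  exact locIso_of_iso (e3 ≪≫ (push (𝟙 _)).mapIso (Groth.Agent.Sga4B.ConstLC.pullConstIso (𝟙 _) M))

/-- Nonvanishing over perfect fields. -/
theorem not_isZero_locCoh_const {K : Type u} [Field K] [PerfectField K] {X U : Scheme.{u}}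
    (f : X ⟶ Spec (CommRingCat.of K)) [LocallyOfFiniteType f]
    (hX : ∀ x : X, IsRegularLocalRing (X.presheaf.stalk x)) (j : U ⟶ X) [IsOpenImmersion j] (c : ℕ)
    (hY : ∀ x : X, x ∉ Set.range j → (c : WithBot ℕ∞) ≤ ringKrullDim (X.presheaf.stalk x))
    (y : X) (hy : y ∉ Set.range j) (hyc : ringKrullDim (X.presheaf.stalk y) = c)
    (n : ℕ) (hn : (n : K) ≠ 0) (hn1 : n ≠ 1) :
    ¬ IsZero ((EtDual.locCoh j (2 * c)).obj (const X (ZMod n))) := by
  intro h0
  have hn0 : n ≠ 0 := by
    rintro rfl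
    exact hn (by simp)
  have hnt : Nontrivial (ZMod n) := ZMod.nontrivial_iff.2 hn1
  rcases Nat.eq_zero_or_pos c with rfl | hc0
  · have hN : IsLocallyNoetherian X := LocallyOfFiniteType.isLocallyNoetherian f
    refine not_isZero_locCoh_zero (fun x => ?_) j y hy (by rw [hyc]; rfl) (ZMod n) h0
    have := hX x
    exact Groth.Agent.CurvesC.RegNormal.isDomain _
  let Z : Closeds X := ⟨(Set.range j)ᶜ, j.isOpenEmbedding.isOpen_range.isClosed_compl⟩
  let I := Scheme.IdealSheafData.vanishingIdeal Z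
  have hred : IsReduced I.subscheme := Groth.Agent.Ega1.ReducedSub.isReduced_subscheme_vanishingIdeal Z
  have hr : Set.range I.subschemeι = Z := by
    rw [Scheme.IdealSheafData.range_subschemeι, Scheme.IdealSheafData.coe_support_vanishingIdeal]
  have hyZ : y ∈ Set.range I.subschemeι := by
    rw [hr]
    exact hy
  obtain ⟨η, hη⟩ := hyZ
  set i : I.subscheme ⟶ X := I.subschemeι with hi
  have hfield : IsField (I.subscheme.presheaf.stalk η) := by
    apply isField_stalk_of_closure_mem_irreducibleComponents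
    obtain ⟨ζ, hζ⟩ := QuasiSober.sober (isIrreducible_irreducibleComponent (x := η))
      isClosed_irreducibleComponent
    have hζ' : closure {ζ} = irreducibleComponent η := hζ
    have h1 : ζ ⤳ η := by
      rw [specializes_iff_mem_closure, hζ']
      exact mem_irreducibleComponent
    have h2 : i ζ ⤳ y := by
      rw [← hη]
      exact h1.map i.continuous
    have h3 : ζ = η := by
      by_contra hne
      have h4 : i ζ ≠ y := fun h => hne (i.isEmbedding.injective (h.trans hη.symm))
      have h5 := ringKrullDim_stalk_lt h2 h4 c hyc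
      have h6 : i ζ ∈ (Z : Set X) := by
        rw [← hr]
        exact ⟨ζ, rfl⟩
      exact absurd h5 (not_lt.2 (hY (i ζ) h6))
    rw [← h3, hζ', ← h3]
    rw [h3]
    exact irreducibleComponent_mem_irreducibleComponents η
  have hregY : IsRegularLocalRing (I.subscheme.presheaf.stalk η) := isRegularLocalRing_of_isField hfield
  have hdimY : ringKrullDim (I.subscheme.presheaf.stalk η) = 0 := ringKrullDim_eq_zero_of_isField hfield
  obtain ⟨m, V, hV, h1, h2⟩ := Groth.Agent.Sga4B.RegLocal.exists_nhd f i c η (hX _) hregY (by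
    rw [hdimY, zero_add, hη, hyc])
  have hjV : Set.range (j ∣_ V) = V.ι ⁻¹' Set.range j := S3109.range_morphismRestrict j V
  have hiV : Set.range (i ∣_ V) = V.ι ⁻¹' Set.range i := S3109.range_morphismRestrict i V
  have hcompl : Set.range (j ∣_ V) = (Set.range (i ∣_ V))ᶜ := by
    rw [hjV, hiV, hr, ← Set.preimage_compl]
    congr 1
    exact (compl_compl _).symm
  have hpure := S3109.smooth_case (V.ι ≫ f) ((i ∣_ V) ≫ V.ι ≫ f) (i ∣_ V) m c hc0 rfl
    (j ∣_ V) hcompl n (S3109.isUnit_sections (V.ι ≫ f) n hn) hn0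
  have key : IsZero ((EtDual.locCoh (j ∣_ V) (2 * c)).obj (const (V : Scheme.{u}) (ZMod n))) := by
    have e1 := (locCohRestrIsoOfRange j V.ι (j ∣_ V) hjV (2 * c)).app (const X (ZMod n))
    have h3 : IsZero ((EtDual.locCoh (j ∣_ V) (2 * c)).obj ((restrAlong V.ι).obj (const X (ZMod n)))) :=
      ((restrAlong V.ι).map_isZero h0).of_iso e1.symm
    exact h3.of_iso ((EtDual.locCoh (j ∣_ V) (2 * c)).mapIso
      (Groth.Agent.Sga4h.EtaleRes2.constRestr V.ι (ZMod n)).symm)
  exact not_isZero_of_pure (i ∣_ V) (j ∣_ V) c ⟨η, hV⟩ (ZMod n) _ hpure key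

/-- Nonvanishing, smooth schemes over an arbitrary field. -/
theorem not_isZero_locCoh_const_smooth {k : Type u} [Field k] {X U : Scheme.{u}}
    (f : X ⟶ Spec (CommRingCat.of k)) [Smooth f] (j : U ⟶ X) [IsOpenImmersion j] (c : ℕ)
    (hY : ∀ x : X, x ∉ Set.range j → (c : WithBot ℕ∞) ≤ ringKrullDim (X.presheaf.stalk x))
    (y : X) (hy : y ∉ Set.range j) (hyc : ringKrullDim (X.presheaf.stalk y) = c)
    (n : ℕ) (hn : (n : k) ≠ 0) (hn1 : n ≠ 1) :
    ¬ IsZero ((EtDual.locCoh j (2 * c)).obj (const X (ZMod n))) := by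
  intro h0
  let K := perfectClosure k (AlgebraicClosure k)
  have : PerfectField K := inferInstance
  have : IsPurelyInseparable k K := inferInstance
  let t : Spec (CommRingCat.of K) ⟶ Spec (CommRingCat.of k) :=
    Spec.map (CommRingCat.ofHom (algebraMap k K))
  have ht1 : UniversallyInjective t := Pi1B.PurInsepSpec.universallyInjective_specMap k K
  have ht2 : IsIntegralHom t := Pi1B.PurInsepSpec.isIntegralHom_specMap k K
  have ht3 : Surjective t := Pi1B.PurInsepSpec.surjective_specMap k K
  have ht4 : Flat t := by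
    rw [Flat.SpecMap_iff]
    exact RingHom.flat_algebraMap_iff.2 inferInstance
  let i : pullback f t ⟶ X := pullback.fst f t
  have hi1 : UniversallyInjective i := MorphismProperty.pullback_fst f t ht1
  have hi : (push i).IsEquivalence := Groth.Agent.Sga4B.UnivHomeoEquiv.isEquivalence_push i
  have hsm : Smooth (pullback.snd f t) := inferInstance
  have hhomeo : Topology.IsOpenEmbedding i := (Groth.Agent.Pi1B.UHClopen.isHomeomorph i).isOpenEmbedding
  have hdim : ∀ x' : ↥(pullback f t), ringKrullDim (X.presheaf.stalk (i x')) =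
      ringKrullDim ((pullback f t).presheaf.stalk x') := fun x' => ringKrullDim_stalk_eq_of_homeo i hhomeo x'
  have hr : ∀ x' : ↥(pullback f t), x' ∉ Set.range (pullback.snd j i) ↔ i x' ∉ Set.range j := by
    intro x'
    rw [IsOpenImmersion.range_pullbackSnd]
    rfl
  obtain ⟨y', hy'⟩ := i.surjective y
  -- the local cohomology sheaf upstairs vanishes
  have hz : IsZero ((EtDual.locCoh (pullback.snd j i) (2 * c)).obj (const (pullback f t) (ZMod n))) := by
    have sq := IsPullback.of_hasPullback j i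
    have e1 : const X (ZMod n) ≅ (push i).obj (const (pullback f t) (ZMod n)) := by
      have := (EtCoh.pullPushAdj i).isEquivalence_left_of_isEquivalence_right
      have h1 : IsIso ((EtCoh.pullPushAdj i).unit.app (const X (ZMod n))) := inferInstance
      exact asIso ((EtCoh.pullPushAdj i).unit.app (const X (ZMod n))) ≪≫
        (push i).mapIso (Sga4B.ConstLC.pullConstIso i (ZMod n))
    have h2 : IsZero ((EtDual.locCoh j (2 * c)).obj ((push i).obj (const (pullback f t) (ZMod n)))) :=
      h0.of_iso ((EtDual.locCoh j (2 * c)).mapIso e1.symm)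
    have h3 : IsZero ((push i).obj ((EtDual.locCoh (pullback.snd j i) (2 * c)).obj
        (const (pullback f t) (ZMod n)))) :=
      h2.of_iso ((locCohPushIso sq (2 * c)).app (const (pullback f t) (ZMod n)))
    exact IsZero.of_full_of_faithful_of_isZero (push i) _ h3
  refine not_isZero_locCoh_const (pullback.snd f t) (fun x => ?_) (pullback.snd j i) c ?_ y' ?_ ?_ n ?_ hn1 hz
  · apply VarietyA.RegSmoothSch.isRegularLocalRing_stalk_of_mem_smoothLocus (pullback.snd f t)
    rw [Scheme.Hom.smoothLocus_eq_top]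
    trivial
  · intro x hx
    rw [← hdim]
    exact hY _ ((hr x).1 hx)
  · rw [hr, hy']
    exact hy
  · rw [← hdim, hy', hyc]
  · intro h0
    apply hn
    have : algebraMap k K (n : k) = 0 := by rw [map_natCast]; exact h0
    exact (map_eq_zero_iff _ (algebraMap k K).injective).1 this

end Groth.Agent.Sga2lef.H88.SemiPurityNe
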