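import Groth.Agent.Etrest.ModAbR
import Groth.Agent.Sga4B.SuppFun
import Groth.Agent.Sga4B.DeltaH
import Groth.Agent.Sga4h.LocCohLES
import Groth.Agent.Etcore.ShriekBasic

/-!
# Vanishing of `Ext_Λ(T, F)` for `T` supported in a closed subset, from the vanishing of local cohomology

`j : U ⟶ X` an open immersion, `F` a sheaf of `Λ`-modules with `locCoh j p F = 0` for `p < n`: then
`Ext^i(T, F) = 0` for `i < n` and all `T` with `j^* T = 0`.
-/

set_option autoImplicit false
universe u

open CategoryTheory CategoryTheory.Limits CategoryTheory.Abelian AlgebraicGeometry Opposite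

attribute [local instance 5000] CategoryTheory.Abelian.toPreadditive
  CategoryTheory.Preadditive.preadditiveHasZeroMorphisms

namespace Groth.Agent.Sga2lef.H88.ExtVanMod

open Groth.Agent.Etrest.ModAb Groth.Agent.Sga4h Groth.Agent.Sga4B.DeltaH Groth.Agent.Localalg.DeltaFun

variable {X U : Scheme.{u}} (j : U ⟶ X) [IsOpenImmersion j]

/-- The unit is an isomorphism on direct images. -/
theorem isIso_unit_push (A : EtCoh.Ab U) : IsIso (EtDual.unitApp j ((EtCoh.push j).obj A)) := by
  have := EtaleRes.jCont j
  have h := (EtCoh.pullPushAdj j).right_triangle_components A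
  have h2 : EtDual.unitApp j ((EtCoh.push j).obj A) =
      inv ((EtCoh.push j).map ((EtCoh.pullPushAdj j).counit.app A)) := by
    rw [← cancel_mono ((EtCoh.push j).map ((EtCoh.pullPushAdj j).counit.app A)), IsIso.inv_hom_id]
    exact h
  rw [h2]
  infer_instance

/-- Direct images of acyclic sheaves have no local cohomology. -/
theorem isZero_locCoh_push (A : EtCoh.Ab U) (hA : EtpbcB.Acyc.Acyclic (EtCoh.push j) A) (p : ℕ) :
    IsZero ((EtDual.locCoh j p).obj ((EtCoh.push j).obj A)) := by
  have := EtaleRes.jCont j
  have h := isIso_unit_push j A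
  match p with
  | 0 => exact (LocCohLES.isZero_locCoh_zero_iff j _).2 inferInstance
  | 1 => exact Sga4B.SuppFun.isZero_locCoh_one j _ h
  | q + 2 =>
    obtain ⟨e⟩ := Sga4B.SuppFun.nonempty_locCoh_iso j (q + 1) (by omega) ((EtCoh.push j).obj A)
    have e2 : (EtCoh.pull j).obj ((EtCoh.push j).obj A) ≅ A := asIso ((EtCoh.pullPushAdj j).counit.app A)
    exact ((hA (q + 1) (by omega)).of_iso ((EtCoh.Rpush j (q + 1)).mapIso e2)).of_iso e

variable (Λ : Type (u + 1)) [CommRing Λ]

/-- The unit of modules is a monomorphism if there are no sections with support. -/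
theorem mono_unit (F : EtModW.Mod Λ X) (h : IsZero ((EtDual.locCoh j 0).obj ((ab Λ X).obj F))) :
    Mono ((pullPushAdj Λ j).unit.app F) := by
  rw [LocCohLES.isZero_locCoh_zero_iff] at h
  refine Preadditive.mono_of_cancel_zero _ (fun {K} g hg => ?_)
  have h1 : (EtModW.pull Λ j).map g = 0 := by
    apply ((pullPushAdj Λ j).homEquiv _ _).injective
    rw [Adjunction.homEquiv_unit, Adjunction.homEquiv_unit, Functor.map_zero, comp_zero, ← hg]
    exact ((pullPushAdj Λ j).unit.naturality g).symm
  have h2 : (EtCoh.pull j).map ((ab Λ X).map g) = 0 := by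
    have h3 := (pullIso Λ j).hom.naturality g
    rw [Functor.comp_map, h1, Functor.map_zero, zero_comp] at h3
    rw [← cancel_epi ((pullIso Λ j).hom.app K), comp_zero]
    exact h3.symm
  have h4 : (ab Λ X).map g = 0 := by
    rw [← cancel_mono (EtDual.unitApp j ((ab Λ X).obj F)), zero_comp]
    exact (SecSupp.comp_unit_eq_zero_iff_pull j _).2 h2
  exact (ab Λ X).map_injective (by rw [h4, Functor.map_zero])

/-- Inverse image along an open immersion preserves monomorphisms. -/
theorem preservesMono_pull : (EtModW.pull Λ j).PreservesMonomorphisms where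
  preserves {F G} f hf := by
    have h0 : PreservesFiniteLimits (EtCoh.pull j) := EtaleRes2.preservesFiniteLimits_pull j
    have h1 : Mono ((EtCoh.pull j).map ((ab Λ X).map f)) := inferInstance
    have h2 : Mono ((ab Λ U).map ((EtModW.pull Λ j).map f)) := by
      have h3 := (pullIso Λ j).hom.naturality f
      have h4 : Mono ((ab Λ U).map ((EtModW.pull Λ j).map f) ≫ (pullIso Λ j).hom.app G) := by
        have h5 : (ab Λ U).map ((EtModW.pull Λ j).map f) ≫ (pullIso Λ j).hom.app G =
            (pullIso Λ j).hom.app F ≫ (EtCoh.pull j).map ((ab Λ X).map f) := h3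
        rw [h5]
        exact mono_comp _ _
      exact mono_of_mono _ ((pullIso Λ j).hom.app G)
    exact (ab Λ U).mono_of_mono_map h2

/-- **Vanishing of `Ext`** from the vanishing of local cohomology. -/
theorem main (n : ℕ) (F : EtModW.Mod Λ X) (h : ∀ p < n, IsZero ((EtDual.locCoh j p).obj ((ab Λ X).obj F)))
    (T : EtModW.Mod Λ X) (hT : IsZero ((EtModW.pull Λ j).obj T)) (i : ℕ) (hi : i < n)
    (e : Ext.{u + 1} T F i) : e = 0 := by
  induction n generalizing F i with
  | zero => omega
  | succ n ih =>
    have hm := mono_unit j Λ F (h 0 (by omega))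
    let IU := Injective.under ((EtModW.pull Λ j).obj F)
    let I := (EtModW.push Λ j).obj IU
    have hpull := preservesMono_pull j Λ
    have hI : Injective I := Injective.injective_of_adjoint (pullPushAdj Λ j) IU
    have : PreservesLimitsOfSize.{0, 0} (EtModW.push Λ j) := (pullPushAdj Λ j).rightAdjoint_preservesLimits
    let a : F ⟶ I := (pullPushAdj Λ j).unit.app F ≫ (EtModW.push Λ j).map (Injective.ι _)
    have ha : Mono a := mono_comp _ _
    let S := ShortComplex.mk a (cokernel.π a) (cokernel.condition a)
    have hS : S.ShortExact := shortExact_cokernel a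
    have hSab : (S.map (ab Λ X)).ShortExact := hS.map_of_exact _
    have hloc : ∀ p < n, IsZero ((EtDual.locCoh j p).obj ((ab Λ X).obj S.X₃)) := by
      intro p hp
      have h1 := (ofRightDerived (EtDual.secSupp j)).exact₃ hSab p
      refine h1.isZero_of_both_zeros ?_ ?_
      · have h2 : IsZero ((EtDual.locCoh j p).obj ((ab Λ X).obj I)) :=
          isZero_locCoh_push j ((ab Λ U).obj IU) (acyclic_ab Λ IU j) p
        exact h2.eq_of_src _ _
      · exact (h (p + 1) (by omega)).eq_of_tgt _ _
    match i with
    | 0 =>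
      obtain ⟨f, rfl⟩ := (Ext.mk₀_bijective T F).2 e
      have h3 : f ≫ a = 0 := by
        apply ((pullPushAdj Λ j).homEquiv _ _).symm.injective
        exact hT.eq_of_src _ _
      have h4 : f = 0 := by rw [← cancel_mono a, h3, zero_comp]
      rw [h4, Ext.mk₀_zero]
    | i + 1 =>
      have h2 : e.comp (Ext.mk₀ S.f) (add_zero _) = 0 := Ext.eq_zero_of_injective _
      obtain ⟨e', he'⟩ := Ext.covariant_sequence_exact₁ T hS e h2 rfl
      rw [← he', ih S.X₃ hloc i (by omega) e', Ext.zero_comp]

end Groth.Agent.Sga2lef.H88.ExtVanMod
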