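import Groth.Agent.Sga4h.BidGlobU
import Groth.Agent.LoccohB.Devissage

/-!
# Local duality at a point, abstract part

`A : DualData T` (duality `D` on complexes in `C`), `F` and `S` reflexive, `S` injective in `C`, the dualizing complex
has injective dimension `≤ N`. If `Ext^i(T, F) = 0` for `i < n` and all objects `T` of a class containing the
cohomology of `D S`, then `Hom(H^b(D F), S) = 0` for `b > N - n`.
-/

set_option autoImplicit false
set_option backward.defeqAttrib.useBackward true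
set_option backward.isDefEq.respectTransparency false

universe w w' v u

open CategoryTheory CategoryTheory.Limits Pretriangulated

namespace Groth.Agent.Sga2lef.H88.LocDualAbs

open DerivedCategory Groth.Agent.Sga4h.Refl Groth.Agent.Sga4h

section Hom

variable {C : Type u} [Category.{v} C] [Abelian C] [HasDerivedCategory.{w} C]

/-- If all morphisms `G ⟶ S[-b]` in the derived category vanish, `S` injective, then all morphisms
`H^b(G) ⟶ S` vanish. -/
theorem eq_zero_of_injective {S : C} [Injective S] (G : CochainComplex C ℤ) (b : ℤ)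
    (h : ∀ φ : Q.obj G ⟶ Q.obj ((HomologicalComplex.single C (ComplexShape.up ℤ) b).obj S), φ = 0)
    (f : G.homology b ⟶ S) : f = 0 := by
  let g : G.opcycles b ⟶ S := Injective.factorThru f (G.homologyι b)
  have hg : G.homologyι b ≫ g = f := Injective.comp_factorThru _ _
  let φ : G ⟶ (HomologicalComplex.single C (ComplexShape.up ℤ) b).obj S :=
    HomologicalComplex.mkHomToSingle (G.pOpcycles b ≫ g) (fun i _ => by simp)
  have h1 : Q.map φ = 0 := h _
  have h2 : HomologicalComplex.homologyMap φ b = 0 := by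
    have h6 := (DerivedCategory.homologyFunctorFactors C b).hom.naturality φ
    rw [Functor.comp_map, h1, Functor.map_zero, zero_comp] at h6
    rw [← cancel_epi ((DerivedCategory.homologyFunctorFactors C b).hom.app G), comp_zero]
    exact h6.symm
  have h3 : G.homologyι b ≫ HomologicalComplex.opcyclesMap φ b = 0 := by
    rw [← HomologicalComplex.homologyι_naturality, h2, zero_comp]
  have h4 : HomologicalComplex.opcyclesMap φ b =
      g ≫ (HomologicalComplex.singleObjOpcyclesSelfIso (ComplexShape.up ℤ) b S).hom := by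
    rw [← cancel_epi (G.pOpcycles b)]
    simp [φ, HomologicalComplex.singleObjOpcyclesSelfIso_hom]
  rw [h4, ← Category.assoc, hg] at h3
  rw [← cancel_mono (HomologicalComplex.singleObjOpcyclesSelfIso (ComplexShape.up ℤ) b S).hom, h3, zero_comp]

end Hom

section Vanish

variable {C : Type u} [Category.{v} C] [Abelian C] [HasDerivedCategory.{w} C] [HasExt.{w'} C]

/-- `Hom(-, F[0])` vanishes on an object. -/
def vanProp (F : C) : ObjectProperty (DerivedCategory C) :=
  fun Y => ∀ f : Y ⟶ (singleFunctor C 0).obj F, f = 0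

instance (F : C) : (vanProp (C := C) F).IsClosedUnderIsomorphisms where
  of_iso e h f := by
    rw [← cancel_epi e.hom, h (e.hom ≫ f), comp_zero]

/-- `Hom_D(Y, F[0]) = 0` if `Y` is bounded, concentrated in degrees `< n`, and `Ext^i(H^i(Y), F) = 0` for
`0 ≤ i < n`. -/
theorem eq_zero_of_ext {F : C} (n : ℕ) (Y : DerivedCategory C) (a c : ℤ) [Y.IsGE a] [Y.IsLE c] (hc : c < n)
    (h : ∀ i : ℕ, i < n → ∀ e : Abelian.Ext.{w'} ((homologyFunctor C i).obj Y) F i, e = 0)
    (f : Y ⟶ (singleFunctor C 0).obj F) : f = 0 := by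
  refine Groth.Agent.LoccohB.Devissage.devissage (vanProp F) (fun Y hY f => hY.eq_of_src _ _)
    (fun T hT h₁ h₃ f => ?_) Y a c (fun i => ?_) f
  · obtain ⟨g, rfl⟩ := Triangle.yoneda_exact₂ T hT f (h₁ _)
    rw [h₃ g, comp_zero]
  · intro f
    by_cases hi : i < n
    · -- a morphism from `(H^i Y)[-i]`
      have key : ∀ g : (singleFunctor C 0).obj ((homologyFunctor C i).obj Y) ⟶
          ((singleFunctor C 0).obj F)⟦i⟧, g = 0 := by
        intro g
        by_cases hi0 : i < 0
        · exact BidGlobDual.eq_zero_of_neg i hi0 g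
        · obtain ⟨i', rfl⟩ : ∃ i' : ℕ, (i' : ℤ) = i := ⟨i.toNat, Int.toNat_of_nonneg (by lia)⟩
          obtain ⟨y, rfl⟩ := (Abelian.Ext.homAddEquiv (X := (homologyFunctor C i').obj Y) (Y := F)
            (n := i')).surjective g
          rw [h i' (by lia) y, map_zero]
      exact BidGlobTri.eq_zero_of_single key f
    · have h0 : IsZero ((homologyFunctor C i).obj Y) := Y.isZero_of_isLE c i (by lia)
      exact ((singleFunctor C i).map_isZero h0).eq_of_src _ _

end Vanish

section Dual

open Groth.Agent.Sga4h.BidGlobU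

variable {C : Type u} [Category.{v} C] [Abelian C] [HasDerivedCategory.{w} C] {T : C ⥤ C ⥤ C} [T.Additive]
  [∀ X, (T.obj X).Additive]
  [∀ (K₁ K₂ : CochainComplex C ℤ), CochainComplex.HasMapBifunctor K₁ K₂ T]
  [∀ E : CochainComplex C ℤ, (T.map₂CochainComplex.flip.obj E).IsLeftAdjoint]
  [∀ (J : Type), HasColimitsOfShape (Discrete J) C]
  [∀ (J : Type), (colim : (Discrete J ⥤ C) ⥤ C).PreservesMonomorphisms]
  (A : DualData T)

/-- Duality exchanges `Hom(D S, F)` and `Hom(D F, S)` for reflexive `F` and `S`. -/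
theorem eq_zero_of_refl {F S : CochainComplex C ℤ} (hF : A.Refl F) (hS : A.Refl S)
    (h : ∀ φ : Q.obj (A.D S) ⟶ Q.obj F, φ = 0) (ψ : Q.obj (A.D F) ⟶ Q.obj S) : ψ = 0 := by
  obtain ⟨e⟩ := nonempty_selfEquiv A (A.D F) (A.D S)
  have hF' := hF.qis
  have hS' := hS.qis
  have e1 : Q.obj F ≅ Q.obj (A.D (A.D F)) := asIso (Q.map (A.ev F))
  have e2 : Q.obj S ≅ Q.obj (A.D (A.D S)) := asIso (Q.map (A.ev S))
  have h1 : ∀ a b : Q.obj (A.D S) ⟶ Q.obj (A.D (A.D F)), a = b := fun a b => by
    rw [← cancel_mono e1.inv, h (a ≫ e1.inv), h (b ≫ e1.inv)]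
  have h2 : ψ ≫ e2.hom = 0 := e.injective (h1 _ _)
  rw [← cancel_mono e2.hom, h2, zero_comp]

/-- Bounds of the dual. -/
theorem bounds [EnoughInjectives C] {I : C} (j : (CochainComplex.singleFunctor C 0).obj I ⟶ A.J)
    (hj : QuasiIso j) (N : ℕ) {J' : CochainComplex C ℤ} (ι : (CochainComplex.singleFunctor C 0).obj I ⟶ J')
    (hι : QuasiIso ι) (hJ' : ∀ n, Injective (J'.X n)) (h1 : J'.IsStrictlyGE 0) (h2 : J'.IsStrictlyLE N)
    (h3 : J'.IsKInjective)
    (K : CochainComplex C ℤ) {a b : ℤ} (ha : (Q.obj K).IsGE a) (hb : (Q.obj K).IsLE b) :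
    (Q.obj (A.D K)).IsGE (-b) ∧ (Q.obj (A.D K)).IsLE (N - a) := by
  let A' : DualData T := ⟨A.S, J', hJ', h3, A.flat⟩
  obtain ⟨e⟩ := nonempty_iso_of_qis A A' j hj ι hι K
  rw [isGE_Q_obj_iff] at ha
  rw [isLE_Q_obj_iff] at hb
  have h4 : (A'.D K).IsGE (-b) := BidRefl.isGE_D A' 0 b (-b) (by lia)
  have h5 : (A'.D K).IsLE (N - a) := BidRefl.isLE_D A' N a (N - a) (by lia)
  rw [← isGE_Q_obj_iff] at h4
  rw [← isLE_Q_obj_iff] at h5
  exact ⟨(TStructure.t : Triangulated.TStructure (DerivedCategory C)).isGE_of_iso e.symm _,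
    (TStructure.t : Triangulated.TStructure (DerivedCategory C)).isLE_of_iso e.symm _⟩

/-- **Local duality, abstract form.** -/
theorem main [EnoughInjectives C] [HasExt.{w'} C] {I : C}
    (j : (CochainComplex.singleFunctor C 0).obj I ⟶ A.J)
    (hj : QuasiIso j) (N : ℕ) {J' : CochainComplex C ℤ} (ι : (CochainComplex.singleFunctor C 0).obj I ⟶ J')
    (hι : QuasiIso ι) (hJ' : ∀ n, Injective (J'.X n)) (h1 : J'.IsStrictlyGE 0) (h2 : J'.IsStrictlyLE N)
    (h3 : J'.IsKInjective) {F S : C} [Injective S]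
    (hF : A.Refl ((CochainComplex.singleFunctor C 0).obj F)) (b : ℤ)
    (hS : A.Refl ((HomologicalComplex.single C (ComplexShape.up ℤ) b).obj S)) (n : ℕ)
    (hExt : ∀ i : ℕ, i < n → ∀ e : Abelian.Ext.{w'}
      ((A.D ((HomologicalComplex.single C (ComplexShape.up ℤ) b).obj S)).homology i) F i, e = 0)
    (hb : N - b < n)
    (f : (A.D ((CochainComplex.singleFunctor C 0).obj F)).homology b ⟶ S) : f = 0 := by
  refine eq_zero_of_injective _ b (fun ψ => ?_) f
  refine eq_zero_of_refl A hF hS (fun φ => ?_) ψ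
  let S' := (HomologicalComplex.single C (ComplexShape.up ℤ) b).obj S
  have hGE : (Q.obj S').IsGE b := by
    rw [isGE_Q_obj_iff]
    exact (inferInstance : ((CochainComplex.singleFunctor C b).obj S).IsGE b)
  have hLE : (Q.obj S').IsLE b := by
    rw [isLE_Q_obj_iff]
    exact (inferInstance : ((CochainComplex.singleFunctor C b).obj S).IsLE b)
  obtain ⟨h5, h6⟩ := bounds A j hj N ι hι hJ' h1 h2 h3 S' hGE hLE
  have e0 : Q.obj ((CochainComplex.singleFunctor C 0).obj F) ≅ (singleFunctor C 0).obj F :=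
    ((singleFunctorIsoCompQ C 0).app F).symm
  rw [← cancel_mono e0.hom, zero_comp]
  refine eq_zero_of_ext n (Q.obj (A.D S')) (-b) (N - b) hb (fun i hi e => ?_) _
  have e1 : (homologyFunctor C i).obj (Q.obj (A.D S')) ≅ (A.D S').homology i :=
    (DerivedCategory.homologyFunctorFactors C i).app _
  have h7 : (Abelian.Ext.mk₀ e1.inv).comp e (zero_add i) = 0 := hExt i hi _
  have h8 : (Abelian.Ext.mk₀ e1.hom).comp ((Abelian.Ext.mk₀ e1.inv).comp e (zero_add i)) (zero_add i) = e := by
    rw [Abelian.Ext.mk₀_comp_mk₀_assoc, Iso.hom_inv_id, Abelian.Ext.mk₀_id_comp]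
  rw [← h8, h7, Abelian.Ext.comp_zero]

end Dual

end Groth.Agent.Sga2lef.H88.LocDualAbs
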