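import Groth.Agent.Sga2lef.H88.LocDualMap
import Groth.Agent.Sga4h.BidInj
import Mathlib.CategoryTheory.Preadditive.Injective.Preserves

/-!
# Bounded injective resolutions

* `BddInj.of_iso`, `BddInj.map` (image under an exact functor preserving injective objects);
* `BddInj.of_dim`: from an injective dimension.
-/

set_option autoImplicit false

universe w v₁ v₂ u₁ u₂

namespace Groth.Agent.Sga2lef.H88.LocDualMap

open CategoryTheory Category Limits

variable {C : Type u₁} [Category.{v₁} C] [Abelian C]

theorem BddInj.of_quasiIso {L L' : CochainComplex C ℤ} (e : L' ⟶ L) (he : QuasiIso e) {N : ℕ} (h : BddInj L N) :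
    BddInj L' N := by
  obtain ⟨J, ι, hι, h⟩ := h
  exact ⟨J, e ≫ ι, inferInstance, h⟩

/-- The image of a bounded injective resolution under an exact functor preserving injective objects. -/
theorem BddInj.map {C' : Type u₂} [Category.{v₂} C'] [Abelian C'] (R : C ⥤ C') [R.Additive]
    [PreservesFiniteLimits R] [PreservesFiniteColimits R] (hR : R.PreservesInjectiveObjects)
    {L : CochainComplex C ℤ} {N : ℕ} (h : BddInj L N) :
    BddInj ((R.mapHomologicalComplex (ComplexShape.up ℤ)).obj L) N := by
  obtain ⟨J, ι, hι, hJ, h1, h2, -⟩ := h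
  have hJ' : ∀ n, Injective (((R.mapHomologicalComplex (ComplexShape.up ℤ)).obj J).X n) := fun n => by
    have := hJ n
    exact R.injective_obj (J.X n)
  have h1' : CochainComplex.IsStrictlyGE ((R.mapHomologicalComplex (ComplexShape.up ℤ)).obj J) 0 := by
    rw [CochainComplex.isStrictlyGE_iff]
    intro i hi
    exact R.map_isZero (J.isZero_of_isStrictlyGE 0 i hi)
  have h2' : CochainComplex.IsStrictlyLE ((R.mapHomologicalComplex (ComplexShape.up ℤ)).obj J) N := by
    rw [CochainComplex.isStrictlyLE_iff]
    intro i hi
    exact R.map_isZero (J.isZero_of_isStrictlyLE N i hi)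
  exact ⟨_, (R.mapHomologicalComplex (ComplexShape.up ℤ)).map ι, inferInstance, hJ', h1', h2',
    CochainComplex.isKInjective_of_injective _ 0⟩

/-- Bounded injective resolutions from the injective dimension. -/
theorem BddInj.of_dim [EnoughInjectives C] (G : C) (N : ℕ) (h : HasInjectiveDimensionLT G (N + 1)) :
    BddInj ((CochainComplex.singleFunctor C 0).obj G) N := by
  obtain ⟨J', ι, hι, hJ', h1, h2, h3⟩ := Groth.Agent.Sga4h.BidInj.exists_bounded G N
  exact ⟨J', ι, hι, hJ', h1, h2, h3⟩

end Groth.Agent.Sga2lef.H88.LocDualMap
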