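import Groth.Agent.Sga4h.ModPointCons
import Groth.Agent.Sga4h.BidGlobTri
import Groth.Agent.Etcore.OpenClosed
import Groth.Agent.Etcore.LFinite
import Groth.Agent.EtpbcA.FinPush
import Groth.Agent.Etrest.ModCons
import Groth.Agent.Sga4h.ModConstFT
import Groth.Agent.Sga4h.EtaleRes

/-!
# Skyscraper sheaves of modules at a closed point with separably closed residue field

`Λ = ULift (ZMod m)`, `i : Spec κ ⟶ X` a closed immersion, `κ` separably closed; `sky m i = i_* Λ`.
* `injective_sky`;
* `isZero_pull_of_hom`: if `Hom(F, i_* Λ) = 0` then `i^* F = 0`;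
* `isZero_pull_sky`: `j^* (i_* Λ) = 0` for `j` étale disjoint from `i`;
* `isConstructible_sky`.
-/

set_option autoImplicit false
universe u

open CategoryTheory CategoryTheory.Limits CategoryTheory.Abelian AlgebraicGeometry Opposite

attribute [local instance 5000] CategoryTheory.Abelian.toPreadditive
  CategoryTheory.Preadditive.preadditiveHasZeroMorphisms

-- kernel speed: find the instances on `ULift (ZMod m)` through `CommRing`
attribute [-instance] ULift.ring ULift.semiring ULift.commSemiring ULift.addCommGroup ULift.addCommMonoid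

namespace Groth.Agent.Sga2lef.H88.LocDualSky

open Groth.Agent.Etrest.ModAb Groth.Agent.Sga4h

variable (m : ℕ)

/-- Linear functionals separate the points of a `ZMod m`-module. -/
theorem exists_linear (hm : 0 < m) (M : ModuleCat.{u + 1} (ULift.{u + 1} (ZMod m))) (x : M) (hx : x ≠ 0) :
    ∃ β : M ⟶ ModuleCat.of (ULift.{u + 1} (ZMod m)) (ULift.{u + 1} (ZMod m)), β x ≠ 0 := by
  have hM : ∀ x : M, m • x = 0 := fun x => by
    have : (m • (1 : ULift.{u + 1} (ZMod m))) • x = m • x := by
      rw [smul_assoc, one_smul]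
    rw [← this]
    have : m • (1 : ULift.{u + 1} (ZMod m)) = 0 := by
      ext
      simp
    rw [this, zero_smul]
  obtain ⟨b, hb⟩ := BidGlobTri.exists_hom_ne_zero hm.ne' hM hx
  let b' : M →+ ULift.{u + 1} (ZMod m) := AddEquiv.ulift.symm.toAddMonoidHom.comp b
  have hb' (r : ULift.{u + 1} (ZMod m)) (x : M) : b' (r • x) = r • b' x := by
    obtain ⟨r⟩ := r
    obtain ⟨r, rfl⟩ := ZMod.intCast_surjective r
    have h1 : (ULift.up (r : ZMod m) : ULift.{u + 1} (ZMod m)) = (r : ULift.{u + 1} (ZMod m)) := rfl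
    rw [h1, Int.cast_smul_eq_zsmul, Int.cast_smul_eq_zsmul, map_zsmul]
  refine ⟨ModuleCat.ofHom { toFun := b', map_add' := map_add b', map_smul' := hb' }, fun h => hb ?_⟩
  exact congrArg ULift.down h

variable {κ : Type u} [Field κ] [IsSepClosed κ]

/-- A sheaf of `ZMod m`-modules on the spectrum of a separably closed field without morphisms to the constant
sheaf is zero. -/
theorem isZero_of_hom (hm : 0 < m) (H : EtModW.Mod (ULift.{u + 1} (ZMod m)) (Spec (CommRingCat.of κ)))
    (h : ∀ f : H ⟶ EtModW.constMod (ULift.{u + 1} (ZMod m)) (Spec (CommRingCat.of κ)) (ULift.{u + 1} (ZMod m)),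
      f = 0) : IsZero H := by
  let Λ := ULift.{u + 1} (ZMod m)
  let M := (ModPoint.Γ Λ (Spec (CommRingCat.of κ))).obj H
  have e : (constantSheaf (Spec (CommRingCat.of κ)).smallEtaleTopology (ModuleCat.{u + 1} Λ)).obj M ≅ H :=
    asIso ((ModPoint.constAdj Λ (Spec (CommRingCat.of κ))).counit.app H)
  have hM : IsZero M := by
    have : Subsingleton M := by
      refine subsingleton_of_forall_eq 0 (fun x => ?_)
      by_contra hx
      obtain ⟨β, hβ⟩ := exists_linear m hm M x hx
      have h1 := h (e.inv ≫ (constantSheaf (Spec (CommRingCat.of κ)).smallEtaleTopology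
        (ModuleCat.{u + 1} Λ)).map β)
      have h2 : (constantSheaf (Spec (CommRingCat.of κ)).smallEtaleTopology
        (ModuleCat.{u + 1} Λ)).map β = 0 := by
        rw [← cancel_epi e.inv, comp_zero]
        exact h1
      have h3 : β = 0 := by
        have := ModPoint.isEquivalence_const Λ κ
        exact (constantSheaf (Spec (CommRingCat.of κ)).smallEtaleTopology
          (ModuleCat.{u + 1} Λ)).map_injective (by rw [h2, Functor.map_zero])
      apply hβ
      rw [h3]
      rfl
    exact ModuleCat.isZero_of_subsingleton M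
  exact ((Functor.map_isZero _ hM).of_iso e.symm)

variable {X : Scheme.{u}} (i : Spec (CommRingCat.of κ) ⟶ X)

/-- The skyscraper sheaf. -/
noncomputable abbrev sky : EtModW.Mod (ULift.{u + 1} (ZMod m)) X :=
  (EtModW.push (ULift.{u + 1} (ZMod m)) i).obj
    (EtModW.constMod (ULift.{u + 1} (ZMod m)) (Spec (CommRingCat.of κ)) (ULift.{u + 1} (ZMod m)))

theorem injective_sky (hm : 0 < m) : Injective (sky m i) := by
  have h1 := ModPoint.injective_zmod.{u} m hm
  have h2 := ModPoint.injective_constMod (ULift.{u + 1} (ZMod m)) κ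
  exact Injective.injective_of_adjoint (pullPushAdj (ULift.{u + 1} (ZMod m)) i) _

theorem isZero_pull_of_hom (hm : 0 < m) (F : EtModW.Mod (ULift.{u + 1} (ZMod m)) X)
    (h : ∀ f : F ⟶ sky m i, f = 0) : IsZero ((EtModW.pull (ULift.{u + 1} (ZMod m)) i).obj F) := by
  refine isZero_of_hom m hm _ (fun f => ?_)
  apply ((pullPushAdj (ULift.{u + 1} (ZMod m)) i).homEquiv _ _).injective
  exact (h _).trans (h _).symm

theorem isZero_pull_sky {U : Scheme.{u}} (j : U ⟶ X) [Etale j] (hd : Disjoint (Set.range i) (Set.range j)) :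
    IsZero ((EtModW.pull (ULift.{u + 1} (ZMod m)) j).obj (sky m i)) := by
  have := EtaleRes.jCont j
  let Λ := ULift.{u + 1} (ZMod m)
  have h1 : IsZero ((EtCoh.pull j).obj ((EtCoh.push i).obj ((ab Λ _).obj
      (EtModW.constMod Λ (Spec (CommRingCat.of κ)) Λ)))) :=
    (Etcore.OpenClosed.isZero_restr_push i j hd _).of_iso ((EtaleRes.pullIsoRestr j).app _)
  have h2 : IsZero ((ab Λ U).obj ((EtModW.pull Λ j).obj (sky m i))) :=
    h1.of_iso ((pullIso Λ j).app (sky m i))
  rw [IsZero.iff_id_eq_zero] at h2 ⊢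
  exact (ab Λ U).map_injective (by
    rw [Functor.map_zero, CategoryTheory.Functor.map_id]
    exact h2)

omit [IsSepClosed κ] in
theorem isConstructible_sky (hm : 0 < m) [IsClosedImmersion i] [LocallyOfFinitePresentation i] :
    EtModW.IsConstructible (ULift.{u + 1} (ZMod m)) (sky m i) := by
  have : NeZero m := ⟨hm.ne'⟩
  let Λ := ULift.{u + 1} (ZMod m)
  have h1 : EtModW.IsConstructible Λ (EtModW.constMod Λ (Spec (CommRingCat.of κ)) Λ) :=
    ModConstFT.isConstructible_const Λ
  have h2 : EtPBC.IsConstructible (Etcore.LVan.ab (EtModW.constMod Λ (Spec (CommRingCat.of κ)) Λ)) :=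
    (Etcore.LFinite.isConstructible_iff_ab _).1 h1
  rw [Etcore.LFinite.isConstructible_iff_ab]
  exact EtpbcA.FinPush.isConstructible_push i _ h2

end Groth.Agent.Sga2lef.H88.LocDualSky
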