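import Groth.Agent.Sga2lef.H88.LocDualMap
import Groth.Agent.Sga2lef.H88.ExtVanMod
import Groth.Agent.Sga2lef.H88.LocDualSky
import Groth.Agent.Sga4h.BidRed538Et

/-!
# Local duality at a closed point (étale sheaves)

`Λ = ULift (ZMod m)`, `i : Spec κ ⟶ X`, `κ` separably closed, `j : U ⟶ X` an open immersion with
image disjoint from `i`, such that the constant sheaf `Λ` on `X` has injective dimension `≤ N`.
`isZero_pull_homology_D`: if `F` and `i_* Λ` are reflexive for `D = RHom(-, Λ)` and `locCoh j p F = 0` for `p < n` then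
`i^* H^b(D F) = 0` for `b > N - n`.
-/

set_option autoImplicit false
universe u

open CategoryTheory CategoryTheory.Limits CategoryTheory.Abelian AlgebraicGeometry Opposite

attribute [local instance 5000] CategoryTheory.Abelian.toPreadditive
  CategoryTheory.Preadditive.preadditiveHasZeroMorphisms

namespace Groth.Agent.Sga2lef.H88.LocDualEt

attribute [local instance] HasDerivedCategory.standard
open scoped Groth.Agent.Sga4h.ModInst
open Groth.Agent.Sga4h Groth.Agent.Sga4h.Refl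
open Groth.Agent.Sga4h.BidEtSh
open Groth.Agent.Sga4h.ModDTensor Groth.Agent.Sga4h.DualEt
open Groth.Agent.Sga4h.BidEtMod Groth.Agent.Sga4h.BidEtLoc Groth.Agent.Sga4h.BidEtZ
open Groth.Agent.Sga2lef.H88.LocDualMap

section Gen

variable {Λ : Type (u + 1)} [CommRing Λ] {X U : Scheme.{u}} (j : U ⟶ X) [IsOpenImmersion j]

theorem hom_eq_zero (A : DualData (EtModD.tensorBi Λ X))
    (i : (CochainComplex.singleFunctor (EtModW.Mod Λ X) 0).obj (EtModW.constMod Λ X Λ) ⟶ A.J)
    (hi : QuasiIso i) (A' : DualData (EtModD.tensorBi Λ U))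
    (i' : (CochainComplex.singleFunctor (EtModW.Mod Λ U) 0).obj (EtModW.constMod Λ U Λ) ⟶ A'.J)
    (hi' : QuasiIso i') (N : ℕ)
    (hN : BddInj ((CochainComplex.singleFunctor (EtModW.Mod Λ X) 0).obj (EtModW.constMod Λ X Λ)) N)
    {F S : EtModW.Mod Λ X} (hSinj : Injective S) (hS0 : IsZero ((resM Λ j).obj S))
    (hF : A.Refl ((CochainComplex.singleFunctor (EtModW.Mod Λ X) 0).obj F)) (b : ℤ)
    (hS : A.Refl ((HomologicalComplex.single (EtModW.Mod Λ X) (ComplexShape.up ℤ) b).obj S)) (n : ℕ)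
    (hExt : ∀ Y : EtModW.Mod Λ X, IsZero ((resM Λ j).obj Y) → ∀ i : ℕ, i < n → ∀ e : Ext.{u + 1} Y F i, e = 0)
    (hb : N - b < n)
    (f : (A.D ((CochainComplex.singleFunctor (EtModW.Mod Λ X) 0).obj F)).homology b ⟶ S) : f = 0 := by
  obtain ⟨e, he⟩ := BidEtRefl.exists_quasiIso_const (Λ := Λ) j
  exact LocDualMap.hom_eq_zero (tauM Λ j) (BidEtRefl.quasiIso_cmp' j) A i hi A' i' hi' e he N hN hSinj hS0 hF b hS n
    hExt hb f

theorem ext_eq_zero (n : ℕ) (F : EtModW.Mod Λ X)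
    (h : ∀ p < n, IsZero ((EtDual.locCoh j p).obj ((Etrest.ModAb.ab Λ X).obj F)))
    (Y : EtModW.Mod Λ X) (hY : IsZero ((resM Λ j).obj Y)) (i : ℕ) (hi : i < n) (e : Ext.{u + 1} Y F i) : e = 0 :=
  ExtVanMod.main j Λ n F h Y (hY.of_iso ((pullIsoResM Λ j).app Y)) i hi e

/-- **Local duality at a closed point**, for any duality data and a cogenerator `S` at the point. -/
theorem isZero_of_sep (A : DualData (EtModD.tensorBi Λ X))
    (i : (CochainComplex.singleFunctor (EtModW.Mod Λ X) 0).obj (EtModW.constMod Λ X Λ) ⟶ A.J)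
    (hi : QuasiIso i) (A' : DualData (EtModD.tensorBi Λ U))
    (i' : (CochainComplex.singleFunctor (EtModW.Mod Λ U) 0).obj (EtModW.constMod Λ U Λ) ⟶ A'.J)
    (hi' : QuasiIso i') (N : ℕ)
    (hN : BddInj ((CochainComplex.singleFunctor (EtModW.Mod Λ X) 0).obj (EtModW.constMod Λ X Λ)) N)
    {F S : EtModW.Mod Λ X} (hSinj : Injective S) (hS0 : IsZero ((EtModW.pull Λ j).obj S))
    (P : EtModW.Mod Λ X → Prop) (hP : ∀ H : EtModW.Mod Λ X, (∀ f : H ⟶ S, f = 0) → P H)
    (hF : A.Refl ((CochainComplex.singleFunctor (EtModW.Mod Λ X) 0).obj F)) (b : ℤ)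
    (hS : A.Refl ((HomologicalComplex.single (EtModW.Mod Λ X) (ComplexShape.up ℤ) b).obj S)) (n : ℕ)
    (hloc : ∀ p < n, IsZero ((EtDual.locCoh j p).obj ((Etrest.ModAb.ab Λ X).obj F)))
    (hb : N - b < n) :
    P ((A.D ((CochainComplex.singleFunctor (EtModW.Mod Λ X) 0).obj F)).homology b) :=
  hP _ (hom_eq_zero j A i hi A' i' hi' N hN hSinj (hS0.of_iso ((pullIsoResM Λ j).app S).symm) hF b hS n
    (ext_eq_zero j n F hloc) hb)

end Gen

end Groth.Agent.Sga2lef.H88.LocDualEt
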