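import Groth.Agent.Sga2lef.H88.LocDualAbs
import Groth.Agent.Sga4h.BidEtZ
import Groth.Agent.PerfA.ExactD

/-!
# Local duality at a point, abstract part (2)

`R : C ⥤ C'` an exact functor compatible with the dualities (restriction to an open subset).
* `nonempty_homology`: `R (H^q (D E)) ≅ H^q (D' (R E))`;
* `isZero_homology_single`: if `R T = 0` then `R (H^q (D T[-b])) = 0`;
* `hom_eq_zero`: if `S` is injective, `R S = 0`, `F` and `S` are reflexive and `Ext^i(T, F) = 0` for `i < n` and all `T`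
  with `R T = 0`, then `Hom(H^b(D F), S) = 0` for `b > N - n`.
-/

set_option autoImplicit false
set_option linter.unusedSectionVars false
set_option backward.defeqAttrib.useBackward true
set_option backward.isDefEq.respectTransparency false

universe w w' v₁ v₂ u₁ u₂

namespace Groth.Agent.Sga2lef.H88.LocDualMap

open CategoryTheory Category Limits HomologicalComplex CochainComplex Opposite
open Groth.Agent.Sga4h Groth.Agent.Sga4h.Refl

variable {C : Type u₁} [Category.{v₁} C] [Abelian C] {T : C ⥤ C ⥤ C} [T.Additive] [∀ X, (T.obj X).Additive]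
  [∀ (K₁ K₂ : CochainComplex C ℤ), CochainComplex.HasMapBifunctor K₁ K₂ T]
  [∀ E : CochainComplex C ℤ, (T.map₂CochainComplex.flip.obj E).IsLeftAdjoint]
  [∀ (J : Type), HasColimitsOfShape (Discrete J) C]
  [∀ (J : Type), (colim : (Discrete J ⥤ C) ⥤ C).PreservesMonomorphisms]
  {C' : Type u₂} [Category.{v₂} C'] [Abelian C'] {T' : C' ⥤ C' ⥤ C'} [T'.Additive] [∀ X, (T'.obj X).Additive]
  [∀ (K₁ K₂ : CochainComplex C' ℤ), CochainComplex.HasMapBifunctor K₁ K₂ T']
  [∀ E : CochainComplex C' ℤ, (T'.map₂CochainComplex.flip.obj E).IsLeftAdjoint]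
  [∀ (J : Type), HasColimitsOfShape (Discrete J) C']
  [∀ (J : Type), (colim : (Discrete J ⥤ C') ⥤ C').PreservesMonomorphisms]
  {R : C ⥤ C'} [R.Additive] [PreservesFiniteLimits R] [PreservesFiniteColimits R]
  (τ : R ⋙ T' ⋙ (Functor.whiskeringLeft _ _ _).obj R ⟶ T ⋙ (Functor.whiskeringRight _ _ _).obj R)
  (hcmp : ∀ (J : CochainComplex C ℤ) (J' : CochainComplex C' ℤ), J.IsKInjective → J'.IsKInjective →
    ∀ (f : (R.mapHomologicalComplex (ComplexShape.up ℤ)).obj J ⟶ J'), QuasiIso f →
      ∀ E : CochainComplex C ℤ, QuasiIso (BidCmp.cmp τ f E))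

include hcmp in
/-- The cohomology of the dual commutes with `R`. -/
theorem nonempty_homology (A : DualData T) {L : CochainComplex C ℤ} (i : L ⟶ A.J)
    (hi : QuasiIso i) (A' : DualData T') {L' : CochainComplex C' ℤ} (i' : L' ⟶ A'.J)
    (hi' : QuasiIso i') (e : (R.mapHomologicalComplex (ComplexShape.up ℤ)).obj L ⟶ L') (he : QuasiIso e)
    (K : CochainComplex C ℤ) (q : ℤ) :
    Nonempty (R.obj ((A.D K).homology q) ≅
      (A'.D ((R.mapHomologicalComplex (ComplexShape.up ℤ)).obj K)).homology q) := by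
  have := A'.kinj
  obtain ⟨j, hj⟩ := BidEtCmp.exists_quasiIso_of_resolution ((R.mapHomologicalComplex (ComplexShape.up ℤ)).map i)
    (e ≫ i')
  have h := hcmp _ _ A.kinj A'.kinj j hj K
  exact ⟨((Groth.Agent.PerfA.ExactD.mapCxHomology R (ComplexShape.up ℤ) q).app _).symm ≪≫
    isoOfQuasiIsoAt (BidCmp.cmp τ j K) q⟩

include hcmp in
/-- If `R Y = 0` then `R` of the dual of `Y` vanishes. -/
theorem isZero_homology_single (A : DualData T) {L : CochainComplex C ℤ} (i : L ⟶ A.J)
    (hi : QuasiIso i) (A' : DualData T') {L' : CochainComplex C' ℤ} (i' : L' ⟶ A'.J)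
    (hi' : QuasiIso i') (e : (R.mapHomologicalComplex (ComplexShape.up ℤ)).obj L ⟶ L') (he : QuasiIso e)
    (Y : C) (hY : IsZero (R.obj Y)) (b q : ℤ) :
    IsZero (R.obj ((A.D ((HomologicalComplex.single C (ComplexShape.up ℤ) b).obj Y)).homology q)) := by
  obtain ⟨e⟩ := nonempty_homology τ hcmp A i hi A' i' hi' e he
    ((HomologicalComplex.single C (ComplexShape.up ℤ) b).obj Y) q
  refine IsZero.of_iso ?_ e
  have h1 : IsZero ((R.mapHomologicalComplex (ComplexShape.up ℤ)).obj
      ((HomologicalComplex.single C (ComplexShape.up ℤ) b).obj Y)) :=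
    ((HomologicalComplex.single C' (ComplexShape.up ℤ) b).map_isZero hY).of_iso
      ((HomologicalComplex.singleMapHomologicalComplex R (ComplexShape.up ℤ) b).app Y)
  have h2 : ((R.mapHomologicalComplex (ComplexShape.up ℤ)).obj
      ((HomologicalComplex.single C (ComplexShape.up ℤ) b).obj Y)).Acyclic := by
    intro n
    rw [HomologicalComplex.exactAt_iff_isZero_homology]
    exact (HomologicalComplex.homologyFunctor _ _ n).map_isZero h1
  have h3 := A'.acyclic_D h2 q
  rwa [HomologicalComplex.exactAt_iff_isZero_homology] at h3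

/-- `L` has a bounded injective resolution of length `N`. -/
def BddInj (L : CochainComplex C ℤ) (N : ℕ) : Prop :=
  ∃ (J : CochainComplex C ℤ) (ι : L ⟶ J), QuasiIso ι ∧ (∀ n, Injective (J.X n)) ∧
    J.IsStrictlyGE 0 ∧ J.IsStrictlyLE N ∧ J.IsKInjective

include hcmp in
/-- **Local duality, abstract form.** -/
theorem hom_eq_zero [HasDerivedCategory.{w} C] [EnoughInjectives C] [HasExt.{w'} C] (A : DualData T) {I : C}
    (i : (CochainComplex.singleFunctor C 0).obj I ⟶ A.J)
    (hi : QuasiIso i) (A' : DualData T') {L' : CochainComplex C' ℤ} (i' : L' ⟶ A'.J)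
    (hi' : QuasiIso i') (e : (R.mapHomologicalComplex (ComplexShape.up ℤ)).obj
      ((CochainComplex.singleFunctor C 0).obj I) ⟶ L') (he : QuasiIso e)
    (N : ℕ) (hN : BddInj ((CochainComplex.singleFunctor C 0).obj I) N) {F S : C} (hSinj : Injective S)
    (hS0 : IsZero (R.obj S)) (hF : A.Refl ((CochainComplex.singleFunctor C 0).obj F)) (b : ℤ)
    (hS : A.Refl ((HomologicalComplex.single C (ComplexShape.up ℤ) b).obj S)) (n : ℕ)
    (hExt : ∀ Y : C, IsZero (R.obj Y) → ∀ i : ℕ, i < n → ∀ e : Abelian.Ext.{w'} Y F i, e = 0)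
    (hb : N - b < n) (f : (A.D ((CochainComplex.singleFunctor C 0).obj F)).homology b ⟶ S) : f = 0 := by
  obtain ⟨J', ι, hι, hJ', h1, h2, h3⟩ := hN
  exact LocDualAbs.main A i hi N ι hι hJ' h1 h2 h3 hF b hS n
    (fun q hq e' => hExt _ (isZero_homology_single τ hcmp A i hi A' i' hi' e he S hS0 b q) q hq e') hb f

end Groth.Agent.Sga2lef.H88.LocDualMap
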