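import Groth.Agent.Sga2lef.H88.LocDualEt

/-!
# Local duality at a closed point, for the standard duality data

`Λ = ULift (ZMod m)`, `i : Spec κ ⟶ X`, `κ` separably closed, `j : U ⟶ X` an open immersion with
image disjoint from `i`, such that the constant sheaf `Λ` on `X` has injective dimension `≤ N`.
`isZero_pull_homology`: if `F` and `i_* Λ` are reflexive for `D = RHom(-, Λ)` and `locCoh j p F = 0` for `p < n` then
`i^* H^b(D F) = 0` for `b > N - n`.
-/

set_option autoImplicit false
universe u

open CategoryTheory CategoryTheory.Limits CategoryTheory.Abelian AlgebraicGeometry Opposite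

attribute [local instance 5000] CategoryTheory.Abelian.toPreadditive
  CategoryTheory.Preadditive.preadditiveHasZeroMorphisms

-- kernel speed: find the instances on `ULift (ZMod m)` through `CommRing`
attribute [-instance] ULift.ring ULift.semiring ULift.commSemiring ULift.addCommGroup ULift.addCommMonoid

namespace Groth.Agent.Sga2lef.H88.LocDualEt

attribute [local instance] HasDerivedCategory.standard
open scoped Groth.Agent.Sga4h.ModInst
open Groth.Agent.Sga4h Groth.Agent.Sga4h.Refl Groth.Agent.Sga4h.BidRed538Main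
open Groth.Agent.Sga4h.BidEtSh
open Groth.Agent.Sga4h.ModDTensor Groth.Agent.Sga4h.DualEt
open Groth.Agent.Sga4h.BidEtMod Groth.Agent.Sga4h.BidEtLoc Groth.Agent.Sga4h.BidEtZ
open Groth.Agent.Sga2lef.H88.LocDualMap

section Std

variable {Λ : Type (u + 1)} [CommRing Λ] {X U : Scheme.{u}} (j : U ⟶ X) [IsOpenImmersion j]

/-- **Local duality at a closed point**, for the standard duality data and a cogenerator `S` at the point. -/
theorem isZero_of_sep_std (N : ℕ)
    (hN : BddInj ((CochainComplex.singleFunctor (EtModW.Mod Λ X) 0).obj (EtModW.constMod Λ X Λ)) N)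
    {F S : EtModW.Mod Λ X} (hSinj : Injective S) (hS0 : IsZero ((EtModW.pull Λ j).obj S))
    (P : EtModW.Mod Λ X → Prop) (hP : ∀ H : EtModW.Mod Λ X, (∀ f : H ⟶ S, f = 0) → P H)
    (hF : (stdDual Λ X).Refl ((CochainComplex.singleFunctor (EtModW.Mod Λ X) 0).obj F)) (b : ℤ)
    (hS : (stdDual Λ X).Refl ((HomologicalComplex.single (EtModW.Mod Λ X) (ComplexShape.up ℤ) b).obj S)) (n : ℕ)
    (hloc : ∀ p < n, IsZero ((EtDual.locCoh j p).obj ((Etrest.ModAb.ab Λ X).obj F)))
    (hb : N - b < n) :
    P (((stdDual Λ X).D ((CochainComplex.singleFunctor (EtModW.Mod Λ X) 0).obj F)).homology b) :=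
  isZero_of_sep j (stdDual Λ X) (stdι Λ X) (quasiIso_stdι Λ X) (stdDual Λ U) (stdι Λ U) (quasiIso_stdι Λ U)
    N hN hSinj hS0 P hP hF b hS n hloc hb

end Std

section Main

variable {m : ℕ} (hm : 0 < m) {κ : Type u} [Field κ] [IsSepClosed κ] {X U : Scheme.{u}}
  (i : Spec (CommRingCat.of κ) ⟶ X) (j : U ⟶ X) [IsOpenImmersion j]

include hm in
/-- **Local duality at a closed point**, for the standard duality data. -/
theorem isZero_pull_homology (hd : Disjoint (Set.range i) (Set.range j)) (N : ℕ)
    (hN : BddInj (unitCx (ULift.{u + 1} (ZMod m)) X) N)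
    (F : EtModW.Mod (ULift.{u + 1} (ZMod m)) X)
    (hF : (stdDual (ULift.{u + 1} (ZMod m)) X).Refl
      ((CochainComplex.singleFunctor (EtModW.Mod (ULift.{u + 1} (ZMod m)) X) 0).obj F))
    (b : ℤ)
    (hS : (stdDual (ULift.{u + 1} (ZMod m)) X).Refl
      ((HomologicalComplex.single (EtModW.Mod (ULift.{u + 1} (ZMod m)) X) (ComplexShape.up ℤ) b).obj
        (LocDualSky.sky m i)))
    (n : ℕ) (hloc : ∀ p < n, IsZero ((EtDual.locCoh j p).obj ((Etrest.ModAb.ab (ULift.{u + 1} (ZMod m)) X).obj F)))
    (hb : N - b < n) :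
    IsZero ((EtModW.pull (ULift.{u + 1} (ZMod m)) i).obj
      (((stdDual (ULift.{u + 1} (ZMod m)) X).D
        ((CochainComplex.singleFunctor (EtModW.Mod (ULift.{u + 1} (ZMod m)) X) 0).obj F)).homology b)) :=
  isZero_of_sep_std j N hN (LocDualSky.injective_sky m i hm) (LocDualSky.isZero_pull_sky m i j hd)
    (fun H => IsZero ((EtModW.pull (ULift.{u + 1} (ZMod m)) i).obj H))
    (fun H => LocDualSky.isZero_pull_of_hom m i hm H) hF b hS n hloc hb

end Main
end Groth.Agent.Sga2lef.H88.LocDualEt
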